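import Mathlib
import Cfsg.Agent.H952.F4.Gen
import Cfsg.Agent.H163.E6.Defs
import Cfsg.Agent.H882.E6Five

/-!
# S5927, case `n = 6`, `p = 2, 5` with a lift (helper710)
-/

set_option autoImplicit false

namespace Cfsg.Agent.H710.E6C.Six

open Equiv Module Cfsg Cfsg.Lie
open Cfsg.Agent.ChevalleyStructure.E6Min.Tables Cfsg.Agent.ChevalleyStructure.E6Min.Basic
  Cfsg.Agent.ChevalleyStructure.E6Min.Adjoint
open Cfsg.Agent.H163.E6 (V V' Tab scal)
open Cfsg.Agent.H952.F4 (ev es tf GenT)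
open Cfsg.Agent.H952.F4.Gen
open Cfsg.Agent.H952.F4.Jord
open Cfsg.Agent.H952.F4.Cases.Five (ev_conj)

universe u

abbrev A6 := ↥(alternatingGroup (Fin 6))

/-- generating triple of type (2, 4, 5) -/
theorem gen6c : GenT 6 {2, 2} {4, 2} {5} :=
  genT_of (n := 4) (c[2, 3] * c[4, 5]) (c[0, 5, 4, 2] * c[1, 3]) (by decide +kernel) (by decide +kernel)
    ![[], [], [3, 0, 3, 0, 2, 0, 2, 2, 0], [0, 3, 0, 3, 0, 2, 0, 2, 2], [2, 0, 2, 0, 3, 0, 3, 0, 2, 0, 3, 0],
      [0, 2, 0, 2, 0, 3, 0, 3, 0, 2, 0, 3]]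
    (by decide +kernel) (by decide +kernel) (by decide +kernel) (by decide +kernel)

/-! ### elements -/

/-- an even permutation -/
def mk (σ : Perm (Fin 6)) (h : Perm.sign σ = 1) : A6 := ⟨σ, Perm.mem_alternatingGroup.2 h⟩

def a0 : A6 := mk (swap 0 1 * swap 2 3) (by decide +kernel)
def b0 : A6 := mk (swap 0 2 * swap 1 3) (by decide +kernel)
def t0 : A6 := mk (c[1, 2, 3]) (by decide +kernel)
def a1 : A6 := mk (swap 1 4 * swap 2 3) (by decide +kernel)
def b1 : A6 := mk (swap 0 5 * swap 2 3) (by decide +kernel)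
def t1 : A6 := mk (c[0, 1, 2] * c[3, 5, 4]) (by decide +kernel)
def zz : A6 := mk (c[0, 1, 2]) (by decide +kernel)
def ww : A6 := mk (c[3, 4, 5]) (by decide +kernel)
def sg : A6 := mk (swap 0 1 * swap 3 4) (by decide +kernel)
def f4 : A6 := mk (c[0, 1, 2, 3] * c[4, 5]) (by decide +kernel)
def f5 : A6 := mk (c[0, 1, 2, 3, 4]) (by decide +kernel)

/-- the type of a permutation -/
abbrev ct (g : A6) : Multiset ℕ := (g : Perm (Fin 6)).cycleType

/-- the elements with this cycle type are conjugate -/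
def NS (m : Multiset ℕ) : Prop := ∀ g g' : A6, ct g = m → ct g' = m → ∃ k, k * g * k⁻¹ = g'

theorem ns_of {r : A6} {o : Perm (Fin 6)} (ho : Perm.sign o = -1)
    (hor : o * (r : Perm (Fin 6)) = (r : Perm (Fin 6)) * o) : NS (ct r) := by
  have key : ∀ g : A6, ct g = ct r → ∃ x : A6, x * r * x⁻¹ = g := by
    intro g hg
    obtain ⟨s, hs⟩ := isConj_iff.1 (Perm.isConj_iff_cycleType_eq.2 hg.symm)
    rcases Int.units_eq_one_or (Perm.sign s) with h1 | h1
    · exact ⟨⟨s, Perm.mem_alternatingGroup.2 h1⟩, Subtype.ext hs⟩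
    · refine ⟨⟨s * o, Perm.mem_alternatingGroup.2 (by rw [map_mul, h1, ho]; decide)⟩,
        Subtype.ext ?_⟩
      change s * o * (r : Perm (Fin 6)) * (s * o)⁻¹ = g
      rw [mul_assoc s, hor, mul_inv_rev, ← hs]
      group
  intro g g' h h'
  obtain ⟨x, rfl⟩ := key g h
  obtain ⟨y, rfl⟩ := key g' h'
  exact ⟨y * x⁻¹, by group⟩

theorem ct_a0 : ct a0 = {2, 2} := by decide +kernel
theorem ct_t0 : ct t0 = {3} := by decide +kernel
theorem ct_t1 : ct t1 = {3, 3} := by decide +kernel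
theorem ct_f4 : ct f4 = {4, 2} := by decide +kernel
theorem ct_f5 : ct f5 = {5} := by decide +kernel

theorem ns2 : NS {2, 2} := by
  rw [← ct_a0]
  exact ns_of (o := swap 4 5) (by decide +kernel) (by decide +kernel)
theorem ns3 : NS {3} := by
  rw [← ct_t0]
  exact ns_of (o := swap 4 5) (by decide +kernel) (by decide +kernel)
theorem ns33 : NS {3, 3} := by
  rw [← ct_t1]
  exact ns_of (o := swap 0 3 * swap 1 5 * swap 2 4) (by decide +kernel) (by decide +kernel)
theorem ns42 : NS {4, 2} := by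
  rw [← ct_f4]
  exact ns_of (o := swap 4 5) (by decide +kernel) (by decide +kernel)

theorem ct_inv (g : A6) : ct g⁻¹ = ct g := Perm.cycleType_inv _

theorem NS.real {m : Multiset ℕ} (h : NS m) {g : A6} (hg : ct g = m) : ∃ k, k * g * k⁻¹ = g⁻¹ :=
  h g g⁻¹ hg ((ct_inv g).trans hg)

/-- elements of order 5 are real -/
theorem real5 {g : A6} (hg : ct g = {5}) : ∃ k, k * g * k⁻¹ = g⁻¹ := by
  obtain ⟨s, hs⟩ := isConj_iff.1 (Perm.isConj_iff_cycleType_eq.2 (ct_f5.trans hg.symm))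
  have h1 : (swap 1 4 * swap 2 3) * (f5 : Perm (Fin 6)) * (swap 1 4 * swap 2 3)⁻¹ = (f5 : Perm (Fin 6))⁻¹ := by
    decide +kernel
  refine ⟨⟨s * (swap 1 4 * swap 2 3) * s⁻¹, Perm.mem_alternatingGroup.2 ?_⟩, Subtype.ext ?_⟩
  · rw [map_mul, map_mul, map_inv, mul_right_comm, mul_inv_cancel, one_mul]
    decide +kernel
  · change s * (swap 1 4 * swap 2 3) * s⁻¹ * (g : Perm (Fin 6)) * (s * (swap 1 4 * swap 2 3) * s⁻¹)⁻¹ =
      (g : Perm (Fin 6))⁻¹
    rw [← hs]
    calc s * (swap 1 4 * swap 2 3) * s⁻¹ * (s * (f5 : Perm (Fin 6)) * s⁻¹) * (s * (swap 1 4 * swap 2 3) * s⁻¹)⁻¹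
        = s * ((swap 1 4 * swap 2 3) * (f5 : Perm (Fin 6)) * (swap 1 4 * swap 2 3)⁻¹) * s⁻¹ := by group
      _ = (s * (f5 : Perm (Fin 6)) * s⁻¹)⁻¹ := by rw [h1]; group

theorem ne_one_of_ct {g : A6} {m : Multiset ℕ} (hg : ct g = m) (hm : m ≠ 0) : g ≠ 1 := by
  rintro rfl
  exact hm (hg.symm.trans Perm.cycleType_one)

theorem order_of_ct {g : A6} {m : Multiset ℕ} (hg : ct g = m) {k : ℕ} (hm : m.lcm = k) : orderOf g = k := by
  rw [← Subgroup.orderOf_coe, ← Perm.lcm_cycleType]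
  rw [← hm, ← hg]

theorem pow_of_ct {g : A6} {m : Multiset ℕ} (hg : ct g = m) {k : ℕ} (hm : m.lcm = k) : g ^ k = 1 := by
  rw [← order_of_ct hg hm, pow_orderOf_eq_one]

section

variable {E : Type u} [Field E]

theorem dim27 : finrank E (I27 → E) = 27 := by
  rw [Module.finrank_fintype_fun_eq_card]
  decide

theorem NS.ev {m : Multiset ℕ} (h : NS m) (ρ : Representation E A6 (I27 → E)) {g g' : A6} (hg : ct g = m)
    (hg' : ct g' = m) : H952.F4.ev (ρ g) 1 = H952.F4.ev (ρ g') 1 := by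
  obtain ⟨k, rfl⟩ := h g g' hg hg'
  exact (ev_conj ρ k g).symm

/-- homomorphisms of `A₆` are injective or trivial -/
theorem inj_of {G : Type*} [Group G] (θ : A6 →* G) {a : A6} (ha : θ a ≠ 1) {b : A6} (hb : b ≠ 1) : θ b ≠ 1 := by
  have hS : IsSimpleGroup A6 := alternatingGroup.isSimpleGroup (α := Fin 6) (by simp)
  intro h
  rcases (inferInstance : θ.ker.Normal).eq_bot_or_eq_top with h1 | h1
  · have : b ∈ θ.ker := h
    rw [h1, Subgroup.mem_bot] at this
    exact hb this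
  · have : a ∈ θ.ker := by rw [h1]; trivial
    exact ha this

/-- common part: injectivity and Scott's lemma -/
theorem base (tf_act : ∀ (g : ↥(Zgrp E)) (x y : I27 → E), tf (V E g x) (V' E g y) = tf x y) (θ : A6 →* ↥(Zgrp E))
    (h1 : Representation.invariants (MonoidHom.comp (V E) θ) = ⊥)
    (h2 : Representation.invariants (MonoidHom.comp (V' E) θ) = ⊥) :
    (∀ a, a ≠ 1 → θ a ≠ 1) ∧ ∀ {a b c : Multiset ℕ}, GenT 6 a b c → ∃ x y : A6, ct x = a ∧ ct y = b ∧ ct (x * y) = c ∧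
      ev (V E (θ x)) 1 + ev (V E (θ y)) 1 + ev (V E (θ (x * y))) 1 ≤ 27 := by
  constructor
  · have hex : ∃ a, θ a ≠ 1 := by
      by_contra hne
      push Not at hne
      have h4 : (fun _ => (1 : E) : I27 → E) ∈ Representation.invariants (MonoidHom.comp (V E) θ) := by
        rw [Representation.mem_invariants]
        intro g
        rw [MonoidHom.comp_apply, hne, map_one]
        rfl
      rw [h1, Submodule.mem_bot] at h4
      exact one_ne_zero (congrFun h4 (0, 0, 0))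
    obtain ⟨a, ha⟩ := hex
    exact fun b hb => inj_of θ ha hb
  · intro a b c hg
    let ρ : Representation E A6 (I27 → E) := MonoidHom.comp (V E) θ
    have i1 : ρ.invariants = ⊥ := h1
    have i2 : ρ.dual.invariants = ⊥ := H882.E6Five.dual_bot tf_act θ h2
    obtain ⟨x, y, hgen, hx, hy, hxy⟩ := hg
    have hs := H952.F4.Scott.scott ρ hgen
    rw [i1, i2, finrank_bot, finrank_bot, dim27] at hs
    exact ⟨x, y, hx, hy, hxy, hs⟩

/-- the core for `p = 2`, `n = 6` -/
theorem core2 [CharP E 2] (T : Tab 2 E)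
    (two_two : ∀ x : ↥(Zgrp E), x * x = 1 → 15 ≤ ev (V E x) 1)
    (two_four : ∀ x : ↥(Zgrp E), x ^ 4 = 1 → 8 ≤ ev (V E x) 1)
    (tf_act : ∀ (g : ↥(Zgrp E)) (x y : I27 → E), tf (V E g x) (V' E g y) = tf x y)
    (θ : A6 →* ↥(Zgrp E))
    (h1 : Representation.invariants (MonoidHom.comp (V E) θ) = ⊥)
    (h2 : Representation.invariants (MonoidHom.comp (V' E) θ) = ⊥) : False := by
  obtain ⟨hne, hsc⟩ := base tf_act θ h1 h2
  obtain ⟨x, y, hx, hy, hxy, hs⟩ := hsc gen6c
  have e2 := two_two (θ x) (by rw [← map_mul, ← pow_two, pow_of_ct hx (by rfl), map_one])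
  have e4 := two_four (θ y) (by rw [← map_pow, pow_of_ct hy (by rfl), map_one])
  have e5 := T.five (by norm_num) (θ (x * y)) (hne _ (ne_one_of_ct hxy (by decide)))
    (by rw [← map_pow, pow_of_ct hxy (by rfl), map_one]) (by
      obtain ⟨k, hk⟩ := real5 hxy
      exact ⟨θ k, by rw [← map_inv, ← map_mul, ← map_mul, hk, map_inv]⟩)
  omega

/-- the involutions have type 15 -/
theorem fifteen [IsAlgClosed E] {p : ℕ} (hp2 : p ≠ 2) (hp3 : p ≠ 3) (two_ne : (2 : E) ≠ 0) (three_ne : (3 : E) ≠ 0)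
    (T : Tab p E)
    (had : ∀ g : ↥(Zgrp E), ad E g = 1 → ∃ c : Eˣ, c ^ 3 = 1 ∧ (g : GL I27 E) = scal c)
    (θ : A6 →* ↥(Zgrp E)) (hne : ∀ a, a ≠ 1 → θ a ≠ 1) {g : A6} (hg : ct g = {2, 2}) :
    ev (V E (θ g)) 1 = 15 := by
  let ρ : Representation E A6 (I27 → E) := MonoidHom.comp (V E) θ
  have hρ : ∀ a, ρ a = V E (θ a) := fun a => rfl
  -- elements of order 3
  have g3 : ∀ {m : Multiset ℕ}, NS m → m ≠ 0 → m.lcm = 3 → ∀ g : A6, ct g = m →
      ev (ρ g) 1 = 15 ∨ ev (ρ g) 1 = 9 := by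
    intro m hm hm0 hl g hg
    have s3 : θ g ^ 3 = 1 := by rw [← map_pow, pow_of_ct hg hl, map_one]
    have r3 : ∃ k, k * θ g * k⁻¹ = (θ g)⁻¹ := by
      obtain ⟨k, hk⟩ := hm.real hg
      exact ⟨θ k, by rw [← map_inv, ← map_mul, ← map_mul, hk, map_inv]⟩
    have had3 : ad E (θ g) ≠ 1 := by
      intro h
      obtain ⟨c, hc3, hc⟩ := had _ h
      obtain ⟨k, hk⟩ := r3
      have e1 : ((θ g)⁻¹ : ↥(Zgrp E)) = θ g := by
        rw [← hk, mul_inv_eq_iff_eq_mul]
        apply Subtype.ext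
        rw [Subgroup.coe_mul, Subgroup.coe_mul, hc]
        apply Units.ext
        show ((k : GL I27 E) : Matrix I27 I27 E) * algebraMap E _ (c : E) =
          algebraMap E _ (c : E) * ((k : GL I27 E) : Matrix I27 I27 E)
        exact (Algebra.commutes _ _).symm
      have e2 : θ g * θ g = 1 := by
        nth_rewrite 1 [← e1]
        exact inv_mul_cancel _
      have e3 : θ g = 1 := by
        have := s3
        rwa [pow_succ, pow_two, e2, one_mul] at this
      exact hne g (ne_one_of_ct hg hm0) e3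
    have h := T.three hp3 (θ g) had3 s3
    have h' := T.three_real hp3 (θ g) had3 s3 r3
    rw [hρ]
    rcases h with h | h | h | h
    · exact Or.inl h.1
    · exact Or.inr h.1
    · exact Or.inr h.1
    · exact absurd h.1 h'
  -- elements of order 2
  have g2 : ∀ g : A6, ct g = {2, 2} → ev (ρ g) 1 = 15 ∨ ev (ρ g) 1 = 11 := by
    intro g hg
    have h := T.two hp2 (θ g) (hne g (ne_one_of_ct hg (by decide)))
      (by rw [← map_mul, ← pow_two, pow_of_ct hg (by rfl), map_one])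
    rcases h with h | h
    · exact Or.inl h.1
    · exact Or.inr h.1
  have hall : ev (ρ a0) 1 ≠ 11 := by
    intro h11
    have c11 : ∀ g : A6, ct g = {2, 2} → ev (ρ g) 1 = 11 := fun g hg => (ns2.ev ρ hg ct_a0).trans h11
    -- the four-groups
    have key : ∀ a b t : A6, ct a = {2, 2} → ct b = {2, 2} → ct (a * b) = {2, 2} → a * a = 1 → b * b = 1 →
        a * b = b * a → t ^ 3 = 1 → t * a * t⁻¹ = b → t * b * t⁻¹ = a * b → ev (ρ t) 1 ≤ 11 := by
      intro a b t ha hb hab ha2 hb2 hcm ht hta htb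
      have e1 := H952.F4.Eig.four two_ne ρ ha2 hb2 hcm
      have e2 := H952.F4.Eig.a4 two_ne ρ ha2 hb2 hcm ht hta htb
      rw [c11 a ha, c11 b hb, c11 _ hab, dim27] at e1
      rw [dim27] at e2
      have e3 : finrank E ↥(es (ρ a) 1 ⊓ es (ρ b) 1 ⊓ es (ρ t) 1) ≤ finrank E ↥(es (ρ a) 1 ⊓ es (ρ b) 1) :=
        Submodule.finrank_mono inf_le_left
      omega
    have k0 := key a0 b0 t0 (by decide +kernel) (by decide +kernel) (by decide +kernel) (by decide +kernel)
      (by decide +kernel) (by decide +kernel) (by decide +kernel) (by decide +kernel) (by decide +kernel)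
    have k1 := key a1 b1 t1 (by decide +kernel) (by decide +kernel) (by decide +kernel) (by decide +kernel)
      (by decide +kernel) (by decide +kernel) (by decide +kernel) (by decide +kernel) (by decide +kernel)
    have l0 : ev (ρ t0) 1 = 9 := by
      rcases g3 ns3 (by decide) (by rfl) t0 ct_t0 with h | h <;> omega
    have l1 : ev (ρ t1) 1 = 9 := by
      rcases g3 ns33 (by decide) (by rfl) t1 ct_t1 with h | h <;> omega
    have h9 := H952.F4.Eig.nine three_ne ρ (z := zz) (w := ww) (s := sg) (by decide +kernel) (by decide +kernel)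
      (by decide +kernel) (by decide +kernel) (by decide +kernel) (by decide +kernel)
    rw [dim27, c11 sg (by decide +kernel), ns3.ev ρ (g := zz) (by decide +kernel) ct_t0,
      ns3.ev ρ (g := ww) (by decide +kernel) ct_t0, ns33.ev ρ (g := zz * ww) (by decide +kernel) ct_t1,
      ns33.ev ρ (g := zz * ww⁻¹) (by decide +kernel) ct_t1, l0, l1] at h9
    omega
  rcases g2 g hg with h | h
  · exact h
  · exact absurd ((ns2.ev ρ ct_a0 hg).trans h) hall

/-- the core for `p = 5`, `n = 6` -/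
theorem core5 [IsAlgClosed E] [CharP E 5] (T : Tab 5 E)
    (tf_act : ∀ (g : ↥(Zgrp E)) (x y : I27 → E), tf (V E g x) (V' E g y) = tf x y)
    (had : ∀ g : ↥(Zgrp E), ad E g = 1 → ∃ c : Eˣ, c ^ 3 = 1 ∧ (g : GL I27 E) = scal c)
    (θ : A6 →* ↥(Zgrp E))
    (h1 : Representation.invariants (MonoidHom.comp (V E) θ) = ⊥)
    (h2 : Representation.invariants (MonoidHom.comp (V' E) θ) = ⊥) : False := by
  have c5 : (5 : E) = 0 := by exact_mod_cast CharP.cast_eq_zero E 5
  have hp5 : Fact (Nat.Prime 5) := ⟨by norm_num⟩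
  have two_ne : (2 : E) ≠ 0 := by
    intro h
    have : (1 : E) = 0 := by linear_combination c5 - 2 * h
    exact one_ne_zero this
  have three_ne : (3 : E) ≠ 0 := by
    intro h
    have : (1 : E) = 0 := by linear_combination 2 * h - c5
    exact one_ne_zero this
  obtain ⟨hne, hsc⟩ := base tf_act θ h1 h2
  obtain ⟨x, y, hx, hy, hxy, hs⟩ := hsc gen6c
  have e2 := fifteen (by norm_num) (by norm_num) two_ne three_ne T had θ hne hx
  have e5 := H952.F4.Eig.le_mul_ev 5 (T := V E (θ (x * y))) (by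
    rw [← map_pow, ← map_pow, pow_of_ct hxy (by rfl), map_one, map_one])
  rw [dim27] at e5
  -- the square of `y`
  have hyy : ct (y * y) = {2, 2} := by
    obtain ⟨k, rfl⟩ := ns42 f4 y ct_f4 hy
    have h : ct (f4 * f4) = {2, 2} := by decide +kernel
    rw [← h]
    have e : k * f4 * k⁻¹ * (k * f4 * k⁻¹) = k * (f4 * f4) * k⁻¹ := by group
    rw [e]
    exact Perm.cycleType_conj
  have e22 := fifteen (by norm_num) (by norm_num) two_ne three_ne T had θ hne hyy
  have h4 := T.four_real (by norm_num) (θ y) (by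
      rw [← map_mul]
      exact hne _ (ne_one_of_ct hyy (by decide)))
    (by rw [← map_pow, pow_of_ct hy (by rfl), map_one]) (by
      obtain ⟨k, hk⟩ := ns42.real hy
      exact ⟨θ k, by rw [← map_inv, ← map_mul, ← map_mul, hk, map_inv]⟩)
  rw [← map_mul, e22] at h4
  rcases h4 with h | h | h | h | h <;> omega

end

end Cfsg.Agent.H710.E6C.Six
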