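import Mathlib
import Cfsg.Agent.H163.E6.Sit
import Cfsg.Agent.H333.E6Act
import Cfsg.Agent.H944.E6Tab
import Cfsg.Agent.H65.E6Emb
import Cfsg.Agent.H200.E6Two
import Cfsg.Agent.H882.E6Five
import Cfsg.Agent.H710.E6C.Six

/-!
# S5927: `six_two` and `six_five` (helper710)
-/

set_option autoImplicit false

namespace Cfsg.Agent.H163.E6.Cases

open Cfsg Cfsg.Lie Module
open Cfsg.Agent.ChevalleyStructure.E6Min.Tables Cfsg.Agent.ChevalleyStructure.E6Min.Basic
  Cfsg.Agent.ChevalleyStructure.E6Min.Adjoint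

universe u

variable {F : Type u} [Field F] [Finite F] {H : Subgroup ↥(chevE6.group F)}

theorem six_two [CharP F 2] {φ : ↥(alternatingGroup (Fin 6)) →* ↥(chevE6.group F)} (hS : Sit H 6 φ)
    {ψ : ↥(alternatingGroup (Fin 6)) →* ↥(Zgrp F)} (hψ : Lift φ ψ) : False := by
  have : Fact (Nat.Prime 2) := ⟨Nat.prime_two⟩
  obtain ⟨n1, n2⟩ := hS.no_fixed ψ hψ
  exact H710.E6C.Six.core2 (Tor.tab 2) Tor.two_two Tor.two_four Act.tf_act ψ n1 n2

theorem six_five [CharP F 5] {φ : ↥(alternatingGroup (Fin 6)) →* ↥(chevE6.group F)} (hS : Sit H 6 φ)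
    {ψ : ↥(alternatingGroup (Fin 6)) →* ↥(Zgrp F)} (hψ : Lift φ ψ) : False := by
  have : Fact (Nat.Prime 5) := ⟨Nat.prime_five⟩
  have hch : CharP (AlgebraicClosure F) 5 := charP_of_injective_algebraMap
    (algebraMap F (AlgebraicClosure F)).injective 5
  obtain ⟨j, hj⟩ := Sing.exists_emb (algebraMap F (AlgebraicClosure F))
  obtain ⟨n1, n2⟩ := hS.no_fixed ψ hψ
  exact H710.E6C.Six.core5 (Tor.tab_closed 5) Act.tf_act (fun g hg => (Act.ad_eq_one_iff g).1 hg) (j.comp ψ)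
    (H882.E6Five.inv_ext _ j hj ψ n1) (H882.E6Five.inv_ext' _ j hj ψ n2)

end Cfsg.Agent.H163.E6.Cases
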