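import Cfsg.Agent.H710.E6C.ExX
import Cfsg.Agent.H251.E6.LInv5

/-!
# S5927: the three-fold covers of `A₆`, `A₇`, `p ≥ 5`: an `H`-stable line in the Lie algebra (helper710, helper251)
-/

set_option autoImplicit false

namespace Cfsg.Agent.H163.E6.Cov

open Cfsg Cfsg.Lie Module
open Cfsg.Agent.ChevalleyStructure.E6Min.Tables Cfsg.Agent.ChevalleyStructure.E6Min.Basic
  Cfsg.Agent.ChevalleyStructure.E6Min.Adjoint
open Cfsg.Agent.H952.F4 (ev es matRep GenT)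

universe u

variable {F : Type u} [Field F] [Finite F] {H : Subgroup ↥(chevE6.group F)} {n : ℕ}
  {φ : ↥(alternatingGroup (Fin n)) →* ↥(chevE6.group F)}

/-- **`L^A ≠ 0`** -/
theorem inv_ne_bot (p : ℕ) [Fact p.Prime] [CharP F p] (hp : 5 ≤ p) (hn : n = 6 ∨ n = 7) (hφ : Function.Injective φ)
    {ω : Fˣ} (hc : Cover φ ω) :
    Representation.invariants (MonoidHom.comp (LK F) φ : Representation F ↥(alternatingGroup (Fin n)) _) ≠ ⊥ := by
  rcases hn with rfl | rfl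
  · exact inv_six p hp rfl hφ hc
  · exact H251.E6.inv_ne_bot p hp hφ hc

/-- **P2**: with the eigenvalues -/
theorem exists_X' (p : ℕ) [Fact p.Prime] [CharP F p] (hp : 5 ≤ p) (hn : n = 6 ∨ n = 7) (hS : Sit H n φ) {ω : Fˣ}
    (hc : Cover φ ω) :
    ∃ X : chevE6.Idx → F, X ≠ 0 ∧ (∀ a, LK F (φ a) X = X) ∧ ∀ h ∈ H, LK F h X = X ∨ LK F h X = -X :=
  exists_X_of hS (inv_ne_bot p hp hn hS.inj hc)

/-- **P2** -/
theorem exists_X (p : ℕ) [Fact p.Prime] [CharP F p] (hp : 5 ≤ p) (hn : n = 6 ∨ n = 7) (hS : Sit H n φ) {ω : Fˣ}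
    (hc : Cover φ ω) :
    ∃ X : chevE6.Idx → F, X ≠ 0 ∧ ∀ h ∈ H, ∃ c : F, LK F h X = c • X :=
  exists_line_of hS (inv_ne_bot p hp hn hS.inj hc)

end Cfsg.Agent.H163.E6.Cov
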