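import Mathlib
import Cfsg.Agent.H710.E6C.End
import Cfsg.Agent.H163.E6.Defs
import Cfsg.Agent.H882.E6Five

/-!
# S5927, case `n = 7`, `p = 7`: the main argument over an algebraically closed field (helper710)
-/

set_option autoImplicit false

namespace Cfsg.Agent.H710.E6C

open Equiv Module
open Cfsg.Agent.ChevalleyStructure.E6Min.Tables Cfsg.Agent.ChevalleyStructure.E6Min.Basic
  Cfsg.Agent.ChevalleyStructure.E6Min.Adjoint
open Cfsg.Agent.H163.E6 (V V' Tab scal)
open Cfsg.Agent.H952.F4 (ev es tf GenT)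
open Cfsg.Agent.H952.F4.Jord

/-! ### elements -/

/-- an even permutation -/
def mk (σ : Perm (Fin 7)) (h : Perm.sign σ = 1) : A7 := ⟨σ, Perm.mem_alternatingGroup.2 h⟩

def a0 : A7 := mk (swap 0 1 * swap 2 3) (by decide +kernel)
def b0 : A7 := mk (swap 0 2 * swap 1 3) (by decide +kernel)
def t0 : A7 := mk (c[1, 2, 3]) (by decide +kernel)
def a1 : A7 := mk (swap 1 4 * swap 2 3) (by decide +kernel)
def b1 : A7 := mk (swap 0 5 * swap 2 3) (by decide +kernel)
def t1 : A7 := mk (c[0, 1, 2] * c[3, 5, 4]) (by decide +kernel)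
def zz : A7 := mk (c[0, 1, 2]) (by decide +kernel)
def ww : A7 := mk (c[3, 4, 5]) (by decide +kernel)
def sg : A7 := mk (swap 0 1 * swap 3 4) (by decide +kernel)
def f4 : A7 := mk (c[0, 1, 2, 3] * c[4, 5]) (by decide +kernel)
def f5 : A7 := mk (c[0, 1, 2, 3, 4]) (by decide +kernel)

/-! ### conjugacy -/

/-- the type of a permutation -/
abbrev ct (g : A7) : Multiset ℕ := (g : Perm (Fin 7)).cycleType

/-- the elements with this cycle type are conjugate -/
def NS (m : Multiset ℕ) : Prop := ∀ g g' : A7, ct g = m → ct g' = m → ∃ k, k * g * k⁻¹ = g'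

theorem ns_of {r : A7} {o : Perm (Fin 7)} (ho : Perm.sign o = -1)
    (hor : o * (r : Perm (Fin 7)) = (r : Perm (Fin 7)) * o) : NS (ct r) := by
  have key : ∀ g : A7, ct g = ct r → ∃ x : A7, x * r * x⁻¹ = g := by
    intro g hg
    obtain ⟨s, hs⟩ := isConj_iff.1 (Perm.isConj_iff_cycleType_eq.2 hg.symm)
    rcases Int.units_eq_one_or (Perm.sign s) with h1 | h1
    · exact ⟨⟨s, Perm.mem_alternatingGroup.2 h1⟩, Subtype.ext hs⟩
    · refine ⟨⟨s * o, Perm.mem_alternatingGroup.2 (by rw [map_mul, h1, ho]; decide)⟩,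
        Subtype.ext ?_⟩
      change s * o * (r : Perm (Fin 7)) * (s * o)⁻¹ = g
      rw [mul_assoc s, hor, mul_inv_rev, ← hs]
      group
  intro g g' h h'
  obtain ⟨x, rfl⟩ := key g h
  obtain ⟨y, rfl⟩ := key g' h'
  exact ⟨y * x⁻¹, by group⟩

theorem ct_a0 : ct a0 = {2, 2} := by decide +kernel
theorem ct_t0 : ct t0 = {3} := by decide +kernel
theorem ct_t1 : ct t1 = {3, 3} := by decide +kernel
theorem ct_f4 : ct f4 = {4, 2} := by decide +kernel
theorem ct_f5 : ct f5 = {5} := by decide +kernel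

theorem ns2 : NS {2, 2} := by
  rw [← ct_a0]
  exact ns_of (o := swap 5 6) (by decide +kernel) (by decide +kernel)
theorem ns3 : NS {3} := by
  rw [← ct_t0]
  exact ns_of (o := swap 5 6) (by decide +kernel) (by decide +kernel)
theorem ns33 : NS {3, 3} := by
  rw [← ct_t1]
  exact ns_of (o := swap 0 3 * swap 1 5 * swap 2 4) (by decide +kernel) (by decide +kernel)
theorem ns42 : NS {4, 2} := by
  rw [← ct_f4]
  exact ns_of (o := swap 4 5) (by decide +kernel) (by decide +kernel)
theorem ns5 : NS {5} := by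
  rw [← ct_f5]
  exact ns_of (o := swap 5 6) (by decide +kernel) (by decide +kernel)

theorem ct_inv (g : A7) : ct g⁻¹ = ct g := Perm.cycleType_inv _

theorem NS.real {m : Multiset ℕ} (h : NS m) {g : A7} (hg : ct g = m) : ∃ k, k * g * k⁻¹ = g⁻¹ :=
  h g g⁻¹ hg ((ct_inv g).trans hg)

theorem ne_one_of_ct {g : A7} {m : Multiset ℕ} (hg : ct g = m) (hm : m ≠ 0) : g ≠ 1 := by
  rintro rfl
  exact hm (hg.symm.trans Perm.cycleType_one)

theorem order_of_ct {g : A7} {m : Multiset ℕ} (hg : ct g = m) {k : ℕ} (hm : m.lcm = k) : orderOf g = k := by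
  rw [← Subgroup.orderOf_coe, ← Perm.lcm_cycleType]
  rw [← hm, ← hg]

theorem pow_of_ct {g : A7} {m : Multiset ℕ} (hg : ct g = m) {k : ℕ} (hm : m.lcm = k) : g ^ k = 1 := by
  rw [← order_of_ct hg hm, pow_orderOf_eq_one]

/-! ### the count of the elements -/

/-- the trace of an element of `A₅`, `A₆` -/
def cf {n : ℕ} (h : ↥(alternatingGroup (Fin n))) : ℤ :=
  if h = 1 then 27 else if h * h = 1 then 3 else if h * h * h = 1 then 0 else if h * h * h * h = 1 then -1 else 2

set_option maxRecDepth 100000 in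
theorem sum_six : ∑ h : ↥(alternatingGroup (Fin 6)), cf h = 360 := by decide +kernel

set_option maxRecDepth 100000 in
theorem sum_five : ∑ h : ↥(alternatingGroup (Fin 5)), cf h = 120 := by decide +kernel

set_option maxRecDepth 100000 in
theorem ords : ∀ h : ↥(alternatingGroup (Fin 6)), h = 1 ∨ h * h = 1 ∨ h * h * h = 1 ∨ h * h * h * h = 1 ∨
    h * h * h * h * h = 1 := by decide +kernel

end Cfsg.Agent.H710.E6C
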