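import Mathlib
import Cfsg.Agent.ChevalleyStructure.E6Min.Adjoint
import Cfsg.Agent.H163.E6.Defs
import Cfsg.Agent.H927.E6Der

/-!
# S5927: the trace form `tr (D c D d)` on the Lie algebra of type `E₆` is invariant, and nondegenerate in characteristic
`p ≥ 5` (helper710)
-/

set_option autoImplicit false

namespace Cfsg.Agent.H710.E6C.Form

open Cfsg Cfsg.Lie Module Matrix
open Cfsg.Agent.ChevalleyStructure.E6Min.Tables Cfsg.Agent.ChevalleyStructure.E6Min.Basic
  Cfsg.Agent.ChevalleyStructure.E6Min.Checks2 Cfsg.Agent.ChevalleyStructure.E6Min.Adjoint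
open Cfsg.Agent.H163.E6 (V V' L LK V_apply L_eq)
open Cfsg.Agent.H952.F4 (ev)

/-! ### tables -/

/-- opposite roots -/
theorem opp_tab : allLt 72 (fun r => allLt 72 fun s => (s == 71 - r) || ! allLt 6 fun i => carN i r + carN i s == 0) =
    true := by decide +kernel

/-- roots are not 0 -/
theorem ne_tab : allLt 72 (fun r => ! allLt 6 fun i => carN i r == 0) = true := by decide +kernel

theorem opp_of {r s : ℕ} (hr : r < 72) (hs : s < 72) (h : ∀ i < 6, carN i r + carN i s = 0) : s = 71 - r := by
  have h1 := allLt_spec (allLt_spec opp_tab r hr) s hs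
  rw [Bool.or_eq_true, beq_iff_eq] at h1
  rcases h1 with h1 | h1
  · exact h1
  · exfalso
    rw [Bool.not_eq_true'] at h1
    have h2 : (allLt 6 fun i => carN i r + carN i s == 0) = true := by
      have e0 := h 0 (by norm_num)
      have e1 := h 1 (by norm_num)
      have e2 := h 2 (by norm_num)
      have e3 := h 3 (by norm_num)
      have e4 := h 4 (by norm_num)
      have e5 := h 5 (by norm_num)
      show (carN 5 r + carN 5 s == 0 && (carN 4 r + carN 4 s == 0 && (carN 3 r + carN 3 s == 0 &&
        (carN 2 r + carN 2 s == 0 && (carN 1 r + carN 1 s == 0 && (carN 0 r + carN 0 s == 0 && true)))))) = true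
      rw [e0, e1, e2, e3, e4, e5]
      rfl
    rw [h2] at h1
    exact Bool.noConfusion h1

theorem ne_of {r : ℕ} (hr : r < 72) (h : ∀ i < 6, carN i r = 0) : False := by
  have h1 := allLt_spec ne_tab r hr
  rw [Bool.not_eq_true'] at h1
  have h2 : (allLt 6 fun i => carN i r == 0) = true := by
    have e0 := h 0 (by norm_num)
    have e1 := h 1 (by norm_num)
    have e2 := h 2 (by norm_num)
    have e3 := h 3 (by norm_num)
    have e4 := h 4 (by norm_num)
    have e5 := h 5 (by norm_num)
    show (carN 5 r == 0 && (carN 4 r == 0 && (carN 3 r == 0 && (carN 2 r == 0 && (carN 1 r == 0 && (carN 0 r == 0 &&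
      true)))))) = true
    rw [e0, e1, e2, e3, e4, e5]
    rfl
  rw [h2] at h1
  exact Bool.noConfusion h1

/-- the number of nonzero rows -/
theorem six_tab : ∀ r : Fin 72, (∑ x : I27, if sg r.val x = 0 then (0 : ℤ) else 1) = 6 := by decide +kernel

/-- the Gram matrix of the weights -/
def gram (i j : ℕ) : ℤ := ∑ x : I27, wt x i * wt x j

/-- three times the inverse of the Cartan matrix -/
def cinv : Fin 6 → Fin 6 → ℤ :=
  ![![4, 3, 5, 6, 4, 2], ![3, 6, 6, 9, 6, 3], ![5, 6, 10, 12, 8, 4], ![6, 9, 12, 18, 12, 6], ![4, 6, 8, 12, 10, 5],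
    ![2, 3, 4, 6, 5, 4]]

theorem gram_inv : ∀ i k : Fin 6, ∑ j : Fin 6, gram i.val j.val * cinv j k = if i = k then 18 else 0 := by
  decide +kernel

/-! ### traces of products -/

section tr

variable {F : Type*} [CommRing F]

theorem tr_mul (M N : Matrix I27 I27 F) : (M * N).trace = ∑ x, ∑ y, M x y * N y x := by
  unfold Matrix.trace
  refine Finset.sum_congr rfl fun x _ => ?_
  rw [Matrix.diag_apply, Matrix.mul_apply]

/-- the trace of a product of root operators -/
theorem tr_NN {r s : ℕ} (hr : r < 72) (hs : s < 72) : (Nm F r * Nm F s).trace = if s = 71 - r then 6 else 0 := by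
  have h1 : ∀ x : I27, (Nm F r * Nm F s).diag x = if x = sr s (sr r x) then ((sg r x * sg s (sr r x) : ℤ) : F) else 0 := by
    intro x
    rw [Matrix.diag_apply, Nm_mul_apply, Nm_apply]
    split_ifs
    · rw [Int.cast_mul]
    · rw [mul_zero]
  unfold Matrix.trace
  rw [Finset.sum_congr rfl fun x _ => h1 x]
  split_ifs with hrs
  · subst hrs
    have h2 : ∀ x : I27, (if x = sr (71 - r) (sr r x) then ((sg r x * sg (71 - r) (sr r x) : ℤ) : F) else 0) =
        ((if sg r x = 0 then (0 : ℤ) else 1 : ℤ) : F) := by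
      intro x
      by_cases hx : sg r x = 0
      · rw [hx, if_pos rfl, zero_mul, Int.cast_zero, ite_self]
      · obtain ⟨e1, e2, -⟩ := row_opp hr hx
        rw [if_pos e1.symm, e2, if_neg hx]
    rw [Finset.sum_congr rfl fun x _ => h2 x, ← Int.cast_sum, six_tab ⟨r, hr⟩]
    norm_num
  · refine Finset.sum_eq_zero fun x _ => ?_
    split_ifs with hx
    · by_cases h3 : sg r x = 0
      · rw [h3, zero_mul, Int.cast_zero]
      · by_cases h4 : sg s (sr r x) = 0
        · rw [h4, mul_zero, Int.cast_zero]
        · exfalso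
          apply hrs
          refine opp_of hr hs fun i hi => ?_
          have e1 := row_car hr hi h3
          have e2 := row_car hs hi h4
          rw [← hx] at e2
          rw [← e1, ← e2]
          ring
    · rfl

theorem Nm_diag {s : ℕ} (hs : s < 72) (x : I27) : Nm F s x x = 0 := by
  rw [Nm_apply]
  split_ifs with hx
  · by_cases h3 : sg s x = 0
    · rw [h3, Int.cast_zero]
    · exfalso
      refine ne_of hs fun i hi => ?_
      have e1 := row_car hs hi h3
      rw [← hx, sub_self] at e1
      exact e1.symm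
  · rfl

theorem tr_HN (i : ℕ) {s : ℕ} (hs : s < 72) : (Hm F i * Nm F s).trace = 0 := by
  unfold Matrix.trace
  refine Finset.sum_eq_zero fun x _ => ?_
  unfold Hm
  rw [Matrix.diag_apply, Matrix.diagonal_mul, Nm_diag hs, mul_zero]

theorem tr_NH (i : ℕ) {s : ℕ} (hs : s < 72) : (Nm F s * Hm F i).trace = 0 := by
  rw [Matrix.trace_mul_comm, tr_HN i hs]

theorem tr_HH (i j : ℕ) : (Hm F i * Hm F j).trace = ((gram i j : ℤ) : F) := by
  unfold Hm gram
  rw [Matrix.diagonal_mul_diagonal, Matrix.trace_diagonal, Int.cast_sum]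
  refine Finset.sum_congr rfl fun x _ => ?_
  rw [Int.cast_mul]

end tr

/-! ### the form -/

section form

variable {F : Type*} [Field F]

theorem tr_comb (c : chevE6.Idx → F) (M : Matrix I27 I27 F) : (comb c * M).trace = ∑ row, c row * (B F row * M).trace := by
  rw [comb_def, Finset.sum_mul, Matrix.trace_sum]
  refine Finset.sum_congr rfl fun row _ => ?_
  rw [Matrix.smul_mul, Matrix.trace_smul, smul_eq_mul]

theorem cartan_part (h18 : (18 : F) ≠ 0) {c : Fin 6 → F}
    (hj : ∀ j : Fin 6, ∑ i : Fin 6, c i * ((gram i.val j.val : ℤ) : F) = 0) (k : Fin 6) : c k = 0 := by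
  have hk : (18 : F) * c k = 0 := by
    have e : ∑ j : Fin 6, (∑ i : Fin 6, c i * ((gram i.val j.val : ℤ) : F)) * ((cinv j k : ℤ) : F) = 0 :=
      Finset.sum_eq_zero fun j _ => by rw [hj, zero_mul]
    rw [← e]
    simp only [Finset.sum_mul]
    rw [Finset.sum_comm]
    have e3 : ∀ i : Fin 6, ∑ j : Fin 6, c i * ((gram i.val j.val : ℤ) : F) * ((cinv j k : ℤ) : F) =
        c i * (if i = k then 18 else 0) := by
      intro i
      have e4 := gram_inv i k
      have e5 : ((∑ j : Fin 6, gram i.val j.val * cinv j k : ℤ) : F) = if i = k then 18 else 0 := by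
        rw [e4]
        split_ifs <;> norm_num
      rw [← e5, Int.cast_sum, Finset.mul_sum]
      refine Finset.sum_congr rfl fun j _ => ?_
      rw [Int.cast_mul, mul_assoc]
    rw [Finset.sum_congr rfl fun i _ => e3 i, Finset.sum_eq_single k]
    · rw [if_pos rfl, mul_comm]
    · intro i _ hik
      rw [if_neg hik, mul_zero]
    · intro hk
      exact absurd (Finset.mem_univ _) hk
  exact (mul_eq_zero.1 hk).resolve_left h18

/-- nondegeneracy -/
theorem nondeg (h2 : (2 : F) ≠ 0) (h3 : (3 : F) ≠ 0) {c : chevE6.Idx → F} (h : ∀ row, (comb c * B F row).trace = 0) :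
    c = 0 := by
  have h6 : (6 : F) ≠ 0 := by
    rw [show (6 : F) = 2 * 3 by norm_num]
    exact mul_ne_zero h2 h3
  have h18 : (18 : F) ≠ 0 := by
    rw [show (18 : F) = 2 * 3 * 3 by norm_num]
    exact mul_ne_zero (mul_ne_zero h2 h3) h3
  funext row
  rcases row with k | r
  · -- the Cartan part
    have hj : ∀ j : Fin chevE6.rank, ∑ i : Fin chevE6.rank, c (Sum.inl i) * ((gram i.val j.val : ℤ) : F) = 0 := by
      intro j
      have h0 := h (Sum.inl j)
      rw [tr_comb, Fintype.sum_sum_type] at h0
      have e2 : ∑ r : Fin chevE6.nroots, c (Sum.inr r) * (B F (Sum.inr r) * B F (Sum.inl j)).trace = 0 := by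
        refine Finset.sum_eq_zero fun r _ => ?_
        rw [B_inl, B_inr, tr_NH _ (lt72 r), mul_zero]
      rw [e2, add_zero] at h0
      rw [← h0]
      refine Finset.sum_congr rfl fun i _ => ?_
      rw [B_inl, B_inl, tr_HH]
    exact cartan_part h18 (c := fun i : Fin 6 => c (Sum.inl i)) hj k
  · -- the root part
    have hs : 71 - r.val < 72 := by omega
    have h0 := h (Sum.inr ⟨71 - r.val, hs⟩)
    rw [tr_comb, Fintype.sum_sum_type] at h0
    have e1 : ∑ i : Fin chevE6.rank, c (Sum.inl i) * (B F (Sum.inl i) * B F (Sum.inr ⟨71 - r.val, hs⟩)).trace = 0 := by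
      refine Finset.sum_eq_zero fun i _ => ?_
      rw [B_inl, B_inr, tr_HN _ hs, mul_zero]
    have e2 : ∑ s : Fin chevE6.nroots, c (Sum.inr s) * (B F (Sum.inr s) * B F (Sum.inr ⟨71 - r.val, hs⟩)).trace =
        c (Sum.inr r) * 6 := by
      rw [Finset.sum_eq_single r]
      · rw [B_inr, B_inr, tr_NN (lt72 r) hs, if_pos rfl]
      · intro s _ hsr
        rw [B_inr, B_inr, tr_NN (lt72 s) hs, if_neg, mul_zero]
        intro h
        apply hsr
        apply Fin.ext
        have := lt72 r
        have := lt72 s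
        have h' : 71 - r.val = 71 - s.val := h
        omega
      · intro hk
        exact absurd (Finset.mem_univ _) hk
    rw [e1, e2, zero_add] at h0
    exact (mul_eq_zero.1 h0).resolve_right h6

/-- the form -/
def β : (chevE6.Idx → F) →ₗ[F] (chevE6.Idx → F) →ₗ[F] F :=
  LinearMap.mk₂ F (fun c d => (comb c * comb d).trace)
    (fun c c' d => by
      have e : comb (c + c') = comb c + comb c' := by
        rw [comb_def, comb_def, comb_def, ← Finset.sum_add_distrib]
        exact Finset.sum_congr rfl fun row _ => by rw [Pi.add_apply, add_smul]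
      rw [e, Matrix.add_mul, Matrix.trace_add])
    (fun a c d => by
      have e : comb (a • c) = a • comb c := by
        rw [comb_def, comb_def, Finset.smul_sum]
        exact Finset.sum_congr rfl fun row _ => by rw [Pi.smul_apply, smul_eq_mul, mul_smul]
      rw [e, Matrix.smul_mul, Matrix.trace_smul])
    (fun c d d' => by
      have e : comb (d + d') = comb d + comb d' := by
        rw [comb_def, comb_def, comb_def, ← Finset.sum_add_distrib]
        exact Finset.sum_congr rfl fun row _ => by rw [Pi.add_apply, add_smul]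
      rw [e, Matrix.mul_add, Matrix.trace_add])
    (fun a c d => by
      have e : comb (a • d) = a • comb d := by
        rw [comb_def, comb_def, Finset.smul_sum]
        exact Finset.sum_congr rfl fun row _ => by rw [Pi.smul_apply, smul_eq_mul, mul_smul]
      rw [e, Matrix.mul_smul, Matrix.trace_smul])

theorem β_apply (c d : chevE6.Idx → F) : β c d = (comb c * comb d).trace := rfl

/-- invariance under the simply connected group -/
theorem β_L (g : ↥(Zgrp F)) (c d : chevE6.Idx → F) : β (L F g c) (L F g d) = β c d := by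
  have h1 : ∀ c, ((g : GL I27 F) : Matrix I27 I27 F) * comb c = comb (L F g c) * ((g : GL I27 F) : Matrix I27 I27 F) :=
    fun c => comb_mul_of (ad_P g) c
  have h2 : ∀ c, comb (L F g c) = ((g : GL I27 F) : Matrix I27 I27 F) * comb c *
      (((g : GL I27 F)⁻¹ : GL I27 F) : Matrix I27 I27 F) := by
    intro c
    rw [h1, mul_assoc, ← Units.val_mul, mul_inv_cancel, Units.val_one, mul_one]
  rw [β_apply, β_apply, h2, h2]
  have h3 : ((g : GL I27 F) : Matrix I27 I27 F) * comb c * (((g : GL I27 F)⁻¹ : GL I27 F) : Matrix I27 I27 F) *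
      (((g : GL I27 F) : Matrix I27 I27 F) * comb d * (((g : GL I27 F)⁻¹ : GL I27 F) : Matrix I27 I27 F)) =
      ((g : GL I27 F) : Matrix I27 I27 F) * (comb c * comb d) * (((g : GL I27 F)⁻¹ : GL I27 F) : Matrix I27 I27 F) := by
    have h4 : (((g : GL I27 F)⁻¹ : GL I27 F) : Matrix I27 I27 F) * ((g : GL I27 F) : Matrix I27 I27 F) = 1 := by
      rw [← Units.val_mul, inv_mul_cancel, Units.val_one]
    calc _ = ((g : GL I27 F) : Matrix I27 I27 F) * comb c * ((((g : GL I27 F)⁻¹ : GL I27 F) : Matrix I27 I27 F) *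
          ((g : GL I27 F) : Matrix I27 I27 F)) * comb d * (((g : GL I27 F)⁻¹ : GL I27 F) : Matrix I27 I27 F) := by
          simp only [mul_assoc]
      _ = _ := by rw [h4, mul_one]; simp only [mul_assoc]
  rw [h3, Matrix.trace_mul_comm, ← mul_assoc, ← Units.val_mul, inv_mul_cancel, Units.val_one, one_mul]

theorem β_nondeg (h2 : (2 : F) ≠ 0) (h3 : (3 : F) ≠ 0) {c : chevE6.Idx → F} (h : ∀ d, β c d = 0) : c = 0 := by
  refine nondeg h2 h3 fun row => ?_
  have h4 := h (Pi.single row 1)
  have e : comb (Pi.single row (1 : F)) = B F row := by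
    rw [comb_def, Finset.sum_eq_single row]
    · rw [Pi.single_eq_same, one_smul]
    · intro s _ hs
      rw [Pi.single_eq_of_ne hs, zero_smul]
    · intro hk
      exact absurd (Finset.mem_univ _) hk
  rw [β_apply, e] at h4
  exact h4

/-- the adjoint module is self-dual: invariants of the dual come from invariants -/
theorem dual_inv (h2 : (2 : F) ≠ 0) (h3 : (3 : F) ≠ 0) {A : Type*} [Group A] (σ : Representation F A (chevE6.Idx → F))
    (hσ : ∀ a, ∃ g : ↥(Zgrp F), σ a = L F g) (h : σ.dual.invariants ≠ ⊥) : σ.invariants ≠ ⊥ := by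
  obtain ⟨f, hf, hf0⟩ := Submodule.exists_mem_ne_zero_of_ne_bot h
  have hinj : Function.Injective (β : (chevE6.Idx → F) →ₗ[F] (chevE6.Idx → F) →ₗ[F] F) := by
    rw [← LinearMap.ker_eq_bot, eq_bot_iff]
    intro c hc
    rw [LinearMap.mem_ker] at hc
    rw [Submodule.mem_bot]
    exact β_nondeg h2 h3 fun d => by rw [hc]; rfl
  have hsurj : Function.Surjective (β : (chevE6.Idx → F) →ₗ[F] Module.Dual F (chevE6.Idx → F)) :=
    (LinearMap.injective_iff_surjective_of_finrank_eq_finrank (Subspace.dual_finrank_eq).symm).1 hinj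
  obtain ⟨X, rfl⟩ := hsurj f
  have hX0 : X ≠ 0 := by
    rintro rfl
    exact hf0 (map_zero _)
  intro hbot
  apply hX0
  have hX : X ∈ σ.invariants := by
    rw [Representation.mem_invariants]
    intro a
    have hinva : ∀ c d, β (σ a c) (σ a d) = β c d := by
      obtain ⟨g, hg⟩ := hσ a
      intro c d
      rw [hg]
      exact β_L g c d
    have h0 : ∀ d, β (σ a X) d = β X d := by
      intro d
      have e1 : σ a (σ a⁻¹ d) = d := by
        rw [← Module.End.mul_apply, ← map_mul, mul_inv_cancel, map_one]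
        rfl
      have e2 := hinva X (σ a⁻¹ d)
      rw [e1] at e2
      rw [e2]
      have e3 := (Representation.mem_invariants _ _).1 hf a
      have e4 := LinearMap.congr_fun e3 d
      rw [Representation.dual_apply, Module.Dual.transpose_apply, LinearMap.comp_apply] at e4
      exact e4
    have h4 : σ a X - X = 0 := β_nondeg h2 h3 fun d => by
      rw [map_sub, LinearMap.sub_apply, h0, sub_self]
    exact sub_eq_zero.1 h4
  rwa [hbot, Submodule.mem_bot] at hX

end form

end Cfsg.Agent.H710.E6C.Form
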