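import Mathlib
import Cfsg.Agent.H710.E6C.Form
import Cfsg.Agent.H251.E6.Gen7
import Cfsg.Agent.H882.E6Thirty
import Cfsg.Agent.H944.E6Tab
import Cfsg.Agent.H163.E6.Sit
import Cfsg.Agent.H952.F4.Count
import Cfsg.Agent.H952.F4.Scott

/-!
# S5927: the three-fold covers of `A₆`, `A₇`, `p ≥ 5`: an `H`-stable line in the Lie algebra (helper710)
-/

set_option autoImplicit false
set_option linter.unusedSectionVars false

namespace Cfsg.Agent.H163.E6.Cov

open Cfsg Cfsg.Lie Module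
open Cfsg.Agent.ChevalleyStructure.E6Min.Tables Cfsg.Agent.ChevalleyStructure.E6Min.Basic
  Cfsg.Agent.ChevalleyStructure.E6Min.Adjoint
open Cfsg.Agent.H952.F4 (ev es matRep GenT)

universe u

variable {F : Type u} [Field F] [Finite F] {H : Subgroup ↥(chevE6.group F)} {n : ℕ}
  {φ : ↥(alternatingGroup (Fin n)) →* ↥(chevE6.group F)}

/-- from the fixed space of the alternating group to an `H`-stable line -/
theorem exists_X_of (hS : Sit H n φ)
    (hne : Representation.invariants (MonoidHom.comp (LK F) φ : Representation F ↥(alternatingGroup (Fin n)) _) ≠ ⊥) :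
    ∃ X : chevE6.Idx → F, X ≠ 0 ∧ (∀ a, LK F (φ a) X = X) ∧ ∀ h ∈ H, LK F h X = X ∨ LK F h X = -X := by
  set W : Submodule F (chevE6.Idx → F) :=
    Representation.invariants (MonoidHom.comp (LK F) φ : Representation F ↥(alternatingGroup (Fin n)) _) with hWdef
  have memW : ∀ v, v ∈ W ↔ ∀ a ∈ φ.range, LK F a v = v := fun v => by
    rw [hWdef, Representation.mem_invariants]
    constructor
    · rintro h _ ⟨a, rfl⟩
      exact h a
    · intro h a
      exact h _ ⟨a, rfl⟩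
  have rmul : ∀ (x y : ↥(chevE6.group F)) (v : chevE6.Idx → F), LK F (x * y) v = LK F x (LK F y v) := by
    intro x y v
    rw [map_mul, Module.End.mul_apply]
  have hW : ∀ x ∈ H, ∀ v ∈ W, LK F x v ∈ W := by
    intro x hx v hv
    rw [memW] at hv ⊢
    intro a ha
    have h1 := hS.norm x⁻¹ (inv_mem hx) a ha
    rw [inv_inv] at h1
    have h2 : LK F a (LK F x v) = LK F x (LK F (x⁻¹ * a * x) v) := by
      rw [← rmul, ← rmul]
      congr 2
      group
    rw [h2, hv _ h1]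
  have hsq : ∀ x ∈ H, ∀ v ∈ W, LK F x (LK F x v) = v := by
    intro x hx v hv
    rw [← rmul]
    exact (memW v).1 hv _ (hS.sq x hx)
  obtain ⟨w, hw, hw0, hw'⟩ := H952.F4.MaxA.exists_line H W hne hW hsq
  exact ⟨w, hw0, fun a => (memW w).1 hw _ ⟨a, rfl⟩, hw'⟩

/-- Scott's lemma in the Lie algebra -/
theorem scott_inv (h2 : (2 : F) ≠ 0) (h3 : (3 : F) ≠ 0) {A : Type*} [Group A] (φ : A →* ↥(chevE6.group F)) {x y : A}
    (hgen : Subgroup.closure {x, y} = ⊤)
    (h : 78 < ev (LK F (φ x)) 1 + ev (LK F (φ y)) 1 + ev (LK F (φ (x * y))) 1) :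
    Representation.invariants (MonoidHom.comp (LK F) φ : Representation F A _) ≠ ⊥ := by
  have h1 := H952.F4.Scott.scott (MonoidHom.comp (LK F) φ : Representation F A (chevE6.Idx → F)) hgen
  have h78 : finrank F (chevE6.Idx → F) = 78 := by
    rw [Module.finrank_fintype_fun_eq_card]
    rfl
  rw [h78] at h1
  have hσ : ∀ a, ∃ g : ↥(Zgrp F), (MonoidHom.comp (LK F) φ : Representation F A (chevE6.Idx → F)) a = L F g := by
    intro a
    obtain ⟨g, hg⟩ := ad_surjective (φ a)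
    exact ⟨g, by rw [L_eq, hg]; rfl⟩
  intro hbot
  have h4 : (Representation.dual (MonoidHom.comp (LK F) φ : Representation F A (chevE6.Idx → F))).invariants = ⊥ := by
    by_contra hne
    exact H710.E6C.Form.dual_inv h2 h3 _ hσ hne hbot
  rw [hbot, h4, finrank_bot, finrank_bot] at h1
  have h5 : ∀ a, (MonoidHom.comp (LK F) φ : Representation F A (chevE6.Idx → F)) a = LK F (φ a) := fun a => rfl
  rw [h5, h5, h5] at h1
  omega

theorem ord_of_ct {n m : ℕ} {a : ↥(alternatingGroup (Fin n))} {s : Multiset ℕ}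
    (ha : (a : Equiv.Perm (Fin n)).cycleType = s) (hs : s.lcm = m) : orderOf a = m := by
  rw [← Subgroup.orderOf_coe, ← Equiv.Perm.lcm_cycleType, ha, hs]

/-- elements of order 4 -/
theorem four_ge (p : ℕ) [Fact p.Prime] [CharP F p] (hp : 5 ≤ p) (hφ : Function.Injective φ)
    {a : ↥(alternatingGroup (Fin n))} (ha : orderOf a = 4) : 20 ≤ ev (LK F (φ a)) 1 := by
  obtain ⟨g, hg⟩ := ad_surjective (φ a)
  -- a lift of order 4
  have h4 : a ^ 4 = 1 := by rw [← ha]; exact pow_orderOf_eq_one a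
  have hg4 : ad F (g ^ 4) = 1 := by rw [map_pow, hg, ← map_pow, h4, map_one]
  have hg12 : g ^ 12 = 1 := by
    have := ker_pow hg4
    rwa [← pow_mul] at this
  have hx4 : (g ^ 9) ^ 4 = 1 := by
    rw [← pow_mul, show 9 * 4 = 12 * 3 by norm_num, pow_mul, hg12, one_pow]
  have hx : ad F (g ^ 9) = φ a := by
    rw [map_pow, hg, ← map_pow]
    congr 1
    rw [show 9 = 4 * 2 + 1 by norm_num, pow_add, pow_mul, h4, one_pow, one_mul, pow_one]
  have hxx : g ^ 9 * g ^ 9 ≠ 1 := by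
    intro h
    have h1 : φ (a * a) = 1 := by rw [map_mul, ← hx, ← map_mul, h, map_one]
    have h2 : a * a = 1 := hφ (by rw [h1, map_one])
    have h3 : orderOf a ∣ 2 := orderOf_dvd_of_pow_eq_one (by rw [pow_two, h2])
    rw [ha] at h3
    norm_num at h3
  have h5 := (Tor.tab p (F := F)).four (by omega) (g ^ 9) hxx hx4
  have h6 : ev (L F (g ^ 9)) 1 = ev (LK F (φ a)) 1 := by rw [L_eq, hx]
  omega

/-- **`n = 6`** -/
theorem inv_six (p : ℕ) [Fact p.Prime] [CharP F p] (hp : 5 ≤ p) (hn : n = 6) (hφ : Function.Injective φ) {ω : Fˣ}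
    (hc : Cover φ ω) :
    Representation.invariants (MonoidHom.comp (LK F) φ : Representation F ↥(alternatingGroup (Fin n)) _) ≠ ⊥ := by
  have h2 : (2 : F) ≠ 0 := by
    intro h
    have := (CharP.cast_eq_zero_iff F p 2).1 (by exact_mod_cast h)
    have := Nat.le_of_dvd (by norm_num) this
    omega
  have h3 : (3 : F) ≠ 0 := by
    intro h
    have := (CharP.cast_eq_zero_iff F p 3).1 (by exact_mod_cast h)
    have := Nat.le_of_dvd (by norm_num) this
    omega
  have hthree : ∀ a : ↥(alternatingGroup (Fin n)), orderOf a = 3 → ev (LK F (φ a)) 1 = 30 := by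
    intro a ha
    obtain ⟨g, hg⟩ := ad_surjective (φ a)
    have h1 := (type_thirty (Or.inl hn) hφ hc ha hg).2.2
    rwa [L_eq, hg] at h1
  subst hn
  obtain ⟨x, y, hgen, hx, hy, hxy⟩ := H251.E6.gen6c
  refine scott_inv h2 h3 φ hgen ?_
  rw [hthree x (ord_of_ct hx (by decide)), hthree y (ord_of_ct hy (by decide))]
  have := four_ge p hp hφ (a := x * y) (ord_of_ct hxy (by decide))
  omega

/-- **`n = 6`** -/
theorem exists_X_six (p : ℕ) [Fact p.Prime] [CharP F p] (hp : 5 ≤ p) (hn : n = 6) (hS : Sit H n φ) {ω : Fˣ}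
    (hc : Cover φ ω) :
    ∃ X : chevE6.Idx → F, X ≠ 0 ∧ (∀ a, LK F (φ a) X = X) ∧ ∀ h ∈ H, LK F h X = X ∨ LK F h X = -X :=
  exists_X_of hS (inv_six p hp hn hS.inj hc)

/-- the form used by `Cen` -/
theorem exists_line_of (hS : Sit H n φ)
    (hne : Representation.invariants (MonoidHom.comp (LK F) φ : Representation F ↥(alternatingGroup (Fin n)) _) ≠ ⊥) :
    ∃ X : chevE6.Idx → F, X ≠ 0 ∧ ∀ h ∈ H, ∃ c : F, LK F h X = c • X := by
  obtain ⟨X, h0, -, h1⟩ := exists_X_of hS hne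
  refine ⟨X, h0, fun h hh => ?_⟩
  rcases h1 h hh with h2 | h2
  · exact ⟨1, by rw [h2, one_smul]⟩
  · exact ⟨-1, by rw [h2, neg_smul, one_smul]⟩

theorem exists_line_six (p : ℕ) [Fact p.Prime] [CharP F p] (hp : 5 ≤ p) (hn : n = 6) (hS : Sit H n φ) {ω : Fˣ}
    (hc : Cover φ ω) :
    ∃ X : chevE6.Idx → F, X ≠ 0 ∧ ∀ h ∈ H, ∃ c : F, LK F h X = c • X :=
  exists_line_of hS (inv_six p hp hn hS.inj hc)

end Cfsg.Agent.H163.E6.Cov
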